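import Mathlib
import Cfsg.Agent.Lib.Helper32.P8.Tools

/-!
# S4409 packages [XE] and [XQ] (helper38)
-/

set_option autoImplicit false

universe u

namespace Cfsg.Agent.Lib.Helper38.P8

open Cfsg.Agent.Lib.Helper32.P8
open QuaternionGroup

variable {G : Type u} [Group G]

/-- the set `N ∪ dN` as a subgroup, for `d` centralizing `N` with `d * d ∈ N`. -/
def extK (N : Subgroup G) (d : G) (hc : ∀ n ∈ N, n * d = d * n) (hdd : d * d ∈ N) :
    Subgroup G where
  carrier := {g | g ∈ N ∨ d⁻¹ * g ∈ N}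
  one_mem' := Or.inl N.one_mem
  mul_mem' := by
    rintro a b (ha | ha) (hb | hb)
    · exact Or.inl (N.mul_mem ha hb)
    · right
      have h1 := hc a ha
      have h2 : d⁻¹ * (a * b) = a * (d⁻¹ * b) := by
        calc d⁻¹ * (a * b) = d⁻¹ * (a * d) * d⁻¹ * b := by group
          _ = d⁻¹ * (d * a) * d⁻¹ * b := by rw [h1]
          _ = a * (d⁻¹ * b) := by group
      show d⁻¹ * (a * b) ∈ N
      rw [h2]; exact N.mul_mem ha hb
    · right
      show d⁻¹ * (a * b) ∈ N
      rw [← mul_assoc]; exact N.mul_mem ha hb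
    · left
      have h1 := hc _ ha
      have had : a * d = d * a := by
        calc a * d = d * (d⁻¹ * a * d) := by group
          _ = d * (d * (d⁻¹ * a)) := by rw [h1]
          _ = d * a := by group
      have h2 : a * b = d * d * (d⁻¹ * a * (d⁻¹ * b)) := by
        calc a * b = (a * d) * d⁻¹ * b := by group
          _ = (d * a) * d⁻¹ * b := by rw [had]
          _ = d * d * (d⁻¹ * a * (d⁻¹ * b)) := by group
      show a * b ∈ N
      rw [h2]; exact N.mul_mem hdd (N.mul_mem ha hb)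
  inv_mem' := by
    rintro a (ha | ha)
    · exact Or.inl (N.inv_mem ha)
    · right
      have h1 := hc _ ha
      have had : a * d = d * a := by
        calc a * d = d * (d⁻¹ * a * d) := by group
          _ = d * (d * (d⁻¹ * a)) := by rw [h1]
          _ = d * a := by group
      have hcm : Commute a d := had
      have had' : a⁻¹ * d = d * a⁻¹ := hcm.inv_left.eq
      have h2 : d⁻¹ * a⁻¹ = (d * d)⁻¹ * (d⁻¹ * a)⁻¹ := by
        symm
        calc (d * d)⁻¹ * (d⁻¹ * a)⁻¹ = d⁻¹ * d⁻¹ * (a⁻¹ * d) := by group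
          _ = d⁻¹ * d⁻¹ * (d * a⁻¹) := by rw [had']
          _ = d⁻¹ * a⁻¹ := by group
      show d⁻¹ * a⁻¹ ∈ N
      rw [h2]; exact N.mul_mem (N.inv_mem hdd) (N.inv_mem ha)

theorem mem_sup_zpowers_iff (N : Subgroup G) (d : G) (hc : ∀ n ∈ N, n * d = d * n)
    (hdd : d * d ∈ N) (g : G) :
    g ∈ N ⊔ Subgroup.zpowers d ↔ g ∈ N ∨ d⁻¹ * g ∈ N := by
  constructor
  · intro hg
    have hle : N ⊔ Subgroup.zpowers d ≤ extK N d hc hdd := by
      refine sup_le (fun n hn => Or.inl hn) ?_
      rw [Subgroup.zpowers_le]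
      exact Or.inr (by simp)
    exact hle hg
  · rintro (hg | hg)
    · exact Subgroup.mem_sup_left hg
    · have : g = d * (d⁻¹ * g) := by group
      rw [this]
      exact Subgroup.mul_mem _ (Subgroup.mem_sup_right (Subgroup.mem_zpowers d))
        (Subgroup.mem_sup_left hg)

theorem comm_d_of_mem_sup (N : Subgroup G) (d : G) (hc : ∀ n ∈ N, n * d = d * n)
    (hdd : d * d ∈ N) (g : G) (hg : g ∈ N ⊔ Subgroup.zpowers d) : g * d = d * g := by
  rcases (mem_sup_zpowers_iff N d hc hdd g).mp hg with h | h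
  · exact hc g h
  · have h1 := hc _ h
    calc g * d = d * (d⁻¹ * g * d) := by group
      _ = d * (d * (d⁻¹ * g)) := by rw [h1]
      _ = d * g := by group

theorem card_sup_zpowers (N : Subgroup G) (d : G) (hc : ∀ n ∈ N, n * d = d * n)
    (hdN : d ∉ N) (hdd : d * d ∈ N) :
    Nat.card ↥(N ⊔ Subgroup.zpowers d) = 2 * Nat.card ↥N := by
  have hle : N ≤ N ⊔ Subgroup.zpowers d := le_sup_left
  have hidx : N.relIndex (N ⊔ Subgroup.zpowers d) = 2 := by
    rw [Subgroup.relIndex_eq_two_iff]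
    refine ⟨d⁻¹, Subgroup.inv_mem _ (Subgroup.mem_sup_right (Subgroup.mem_zpowers d)), ?_⟩
    intro b hb
    rcases (mem_sup_zpowers_iff N d hc hdd b).mp hb with h | h
    · refine Or.inr ⟨h, fun h2 => hdN ?_⟩
      have : d = (b * d⁻¹)⁻¹ * b := by group
      rw [this]; exact N.mul_mem (N.inv_mem h2) h
    · have h1 := hc _ h
      have h3 : b * d⁻¹ = d⁻¹ * b := by
        calc b * d⁻¹ = d * (d⁻¹ * b) * d⁻¹ := by group
          _ = (d⁻¹ * b * d) * d⁻¹ := by rw [h1]
          _ = d⁻¹ * b := by group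
      refine Or.inl ⟨by rw [h3]; exact h, fun h2 => hdN ?_⟩
      have : d = b * (d⁻¹ * b)⁻¹ := by group
      rw [this]; exact N.mul_mem h2 (N.inv_mem h)
  have h1 := Subgroup.card_mul_index (N.subgroupOf (N ⊔ Subgroup.zpowers d))
  have h2 : Nat.card ↥(N.subgroupOf (N ⊔ Subgroup.zpowers d)) = Nat.card ↥N :=
    Nat.card_congr (Subgroup.subgroupOfEquivOfLe hle).toEquiv
  rw [Subgroup.relIndex] at hidx
  rw [h2, hidx] at h1
  omega

theorem comm_sup_zpowers (N : Subgroup G) (d : G) (hc : ∀ n ∈ N, n * d = d * n)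
    (hdd : d * d ∈ N) (hN : ∀ a ∈ N, ∀ b ∈ N, a * b = b * a) :
    ∀ a ∈ N ⊔ Subgroup.zpowers d, ∀ b ∈ N ⊔ Subgroup.zpowers d, a * b = b * a := by
  have key : ∀ a ∈ N, ∀ b ∈ N ⊔ Subgroup.zpowers d, a * b = b * a := by
    intro a ha b hb
    rcases (mem_sup_zpowers_iff N d hc hdd b).mp hb with h | h
    · exact hN a ha b h
    · have h1 := hN a ha _ h
      have h2 := hc a ha
      calc a * b = (a * d) * (d⁻¹ * b) := by group
        _ = d * (a * (d⁻¹ * b)) := by rw [h2]; group
        _ = d * (d⁻¹ * b * a) := by rw [h1]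
        _ = b * a := by group
  intro a ha b hb
  rcases (mem_sup_zpowers_iff N d hc hdd a).mp ha with h | h
  · exact key a h b hb
  · have h1 := key _ h b hb
    have h2 := comm_d_of_mem_sup N d hc hdd b hb
    calc a * b = d * (d⁻¹ * a * b) := by group
      _ = d * (b * (d⁻¹ * a)) := by rw [h1]
      _ = (d * b) * (d⁻¹ * a) := by group
      _ = (b * d) * (d⁻¹ * a) := by rw [h2]
      _ = b * a := by group

theorem isMulCommutative_of_comm (B : Subgroup G) (h : ∀ a ∈ B, ∀ b ∈ B, a * b = b * a) :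
    IsMulCommutative ↥B :=
  ⟨⟨fun a b => Subtype.ext (h a a.2 b b.2)⟩⟩

/-- (XE) a four-group extended by a centralizing element with square inside. -/
theorem lemExtE : LemExtE.{u} := by
  intro G _ N d hN4 hN2 hdc hdN hdd
  have hc : ∀ n ∈ N, n * d = d * n := fun n hn =>
    (Subgroup.mem_centralizer_iff.mp hdc n hn)
  have hNc : ∀ a ∈ N, ∀ b ∈ N, a * b = b * a := by
    intro a ha b hb
    have h1 := hN2 a ha
    have h2 := hN2 b hb
    have h3 := hN2 (a * b) (N.mul_mem ha hb)
    calc a * b = a * (a * b * (a * b)) * b := by rw [h3]; group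
      _ = (a * a) * b * a * (b * b) := by group
      _ = b * a := by rw [h1, h2]; group
  have hcard := card_sup_zpowers N d hc hdN hdd
  have hcomm := comm_sup_zpowers N d hc hdd hNc
  refine ⟨⟨N ⊔ Subgroup.zpowers d, le_rfl, isMulCommutative_of_comm _ hcomm, ?_, ?_⟩,
    hcard, hcomm⟩
  · intro hcyc
    have hNcyc : IsCyclic ↥N :=
      isCyclic_of_injective (Subgroup.inclusion (le_sup_left : N ≤ N ⊔ Subgroup.zpowers d))
        (Subgroup.inclusion_injective _)
    obtain ⟨g, hg⟩ := hNcyc.exists_generator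
    have ho : orderOf g = Nat.card ↥N := orderOf_eq_card_of_forall_mem_zpowers hg
    have hg2 : g ^ 2 = 1 := by
      rw [pow_two]
      exact Subtype.ext (hN2 g g.2)
    have := orderOf_dvd_of_pow_eq_one hg2
    rw [ho, hN4] at this
    omega
  · rw [hcard, hN4]

theorem zpow_pow_four (u : G) (h : u ^ 4 = 1) (i : ℤ) : (u ^ i) ^ 4 = 1 := by
  rw [← zpow_natCast, ← zpow_mul, mul_comm, zpow_mul, zpow_natCast, h, one_zpow]

/-- central elements of the quaternion group of order 8. -/
theorem q8_central (z : QuaternionGroup 2) (hz : ∀ q : QuaternionGroup 2, z * q = q * z) :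
    z = 1 ∨ z = a 1 ^ 2 := by
  revert z
  decide

/-- (XQ) a quaternion group extended by a centralizing element with square inside. -/
theorem lemExtQ : LemExtQ.{u} := by
  intro G _ N d ⟨e⟩ hdc hdN hdd
  have hc : ∀ n ∈ N, n * d = d * n := fun n hn =>
    (Subgroup.mem_centralizer_iff.mp hdc n hn)
  have hcard := card_sup_zpowers N d hc hdN hdd
  refine ⟨?_, hcard⟩
  -- the element of order 4
  have hu : orderOf (e.symm (a 1) : ↥N) = 4 := by
    rw [MulEquiv.orderOf_eq, QuaternionGroup.orderOf_a_one]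
  have hu' : orderOf ((e.symm (a 1) : ↥N) : G) = 4 := by
    rw [Subgroup.orderOf_coe]; exact hu
  have huN : ((e.symm (a 1) : ↥N) : G) ∈ N := (e.symm (a 1)).2
  -- `d * d` is central in `N`
  have hz : d * d = 1 ∨ d * d = ((e.symm (a 1) : ↥N) : G) ^ 2 := by
    have h1 : ∀ q : QuaternionGroup 2, e ⟨d * d, hdd⟩ * q = q * e ⟨d * d, hdd⟩ := by
      intro q
      have h2 : (⟨d * d, hdd⟩ : ↥N) * e.symm q = e.symm q * ⟨d * d, hdd⟩ := by
        apply Subtype.ext
        have h3 := hc _ (e.symm q).2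
        show d * d * (e.symm q : G) = (e.symm q : G) * (d * d)
        calc d * d * (e.symm q : G) = d * (d * (e.symm q : G)) := by group
          _ = d * ((e.symm q : G) * d) := by rw [h3]
          _ = (d * (e.symm q : G)) * d := by group
          _ = ((e.symm q : G) * d) * d := by rw [h3]
          _ = (e.symm q : G) * (d * d) := by group
      have h4 := congrArg e h2
      simpa using h4
    rcases q8_central _ h1 with h | h
    · left
      have h5 : (⟨d * d, hdd⟩ : ↥N) = 1 := by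
        apply e.injective; rw [h]; simp
      exact congrArg Subtype.val h5
    · right
      have h5 : (⟨d * d, hdd⟩ : ↥N) = (e.symm (a 1)) ^ 2 := by
        apply e.injective; rw [h]; simp
      have h6 := congrArg Subtype.val h5
      simpa using h6
  have hddU : d * d ∈ Subgroup.zpowers ((e.symm (a 1) : ↥N) : G) := by
    rcases hz with h | h
    · rw [h]; exact Subgroup.one_mem _
    · rw [h]; exact Subgroup.pow_mem _ (Subgroup.mem_zpowers _) 2
  have hUN : Subgroup.zpowers ((e.symm (a 1) : ↥N) : G) ≤ N := by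
    rw [Subgroup.zpowers_le]; exact huN
  have hcU : ∀ n ∈ Subgroup.zpowers ((e.symm (a 1) : ↥N) : G), n * d = d * n :=
    fun n hn => hc n (hUN hn)
  have hdU : d ∉ Subgroup.zpowers ((e.symm (a 1) : ↥N) : G) := fun h => hdN (hUN h)
  have hUc : ∀ x ∈ Subgroup.zpowers ((e.symm (a 1) : ↥N) : G),
      ∀ y ∈ Subgroup.zpowers ((e.symm (a 1) : ↥N) : G), x * y = y * x := by
    intro x hx y hy
    obtain ⟨i, rfl⟩ := Subgroup.mem_zpowers_iff.mp hx
    obtain ⟨j, rfl⟩ := Subgroup.mem_zpowers_iff.mp hy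
    exact (Commute.zpow_zpow_self _ i j).eq
  have hcardB := card_sup_zpowers _ d hcU hdU hddU
  have hcommB := comm_sup_zpowers _ d hcU hddU hUc
  have hU4 : Nat.card ↥(Subgroup.zpowers ((e.symm (a 1) : ↥N) : G)) = 4 := by
    rw [Nat.card_zpowers]; exact hu'
  have hu4 : ((e.symm (a 1) : ↥N) : G) ^ 4 = 1 := by
    have h := pow_orderOf_eq_one ((e.symm (a 1) : ↥N) : G)
    rwa [hu'] at h
  have hpow4U : ∀ x ∈ Subgroup.zpowers ((e.symm (a 1) : ↥N) : G), x ^ 4 = 1 := by
    intro x hx
    obtain ⟨i, rfl⟩ := Subgroup.mem_zpowers_iff.mp hx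
    exact zpow_pow_four _ hu4 i
  have hdd2 : (d * d) ^ 2 = 1 := by
    rcases hz with h | h
    · rw [h]; simp
    · rw [h, ← pow_mul]; exact hu4
  have hpow4 : ∀ x ∈ Subgroup.zpowers ((e.symm (a 1) : ↥N) : G) ⊔ Subgroup.zpowers d,
      x ^ 4 = 1 := by
    intro x hx
    rcases (mem_sup_zpowers_iff _ d hcU hddU x).mp hx with h | h
    · exact hpow4U x h
    · have h1 := hpow4U _ h
      have h2 : Commute d (d⁻¹ * x) := (hcU _ h).symm
      have h3 : x = d * (d⁻¹ * x) := by group
      rw [h3, h2.mul_pow, h1, mul_one]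
      have : d ^ 4 = (d * d) ^ 2 := by
        rw [← pow_two, ← pow_mul]
      rw [this, hdd2]
  refine ⟨Subgroup.zpowers ((e.symm (a 1) : ↥N) : G) ⊔ Subgroup.zpowers d,
    sup_le_sup_right hUN _, isMulCommutative_of_comm _ hcommB, ?_, ?_⟩
  · intro hcyc
    obtain ⟨g, hg⟩ := hcyc.exists_generator
    have ho : orderOf g = Nat.card
        ↥(Subgroup.zpowers ((e.symm (a 1) : ↥N) : G) ⊔ Subgroup.zpowers d) :=
      orderOf_eq_card_of_forall_mem_zpowers hg
    have hg4 : g ^ 4 = 1 := Subtype.ext (by simpa using hpow4 g g.2)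
    have := orderOf_dvd_of_pow_eq_one hg4
    rw [ho, hcardB, hU4] at this
    omega
  · rw [hcardB, hU4]

end Cfsg.Agent.Lib.Helper38.P8
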