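import Mathlib
import Cfsg.Agent.Lib.Helper32.P8.Tools

/-!
# S4409 package [Q8A] (helper38)
-/

set_option autoImplicit false

universe u

namespace Cfsg.Agent.Lib.Helper38.P8

open Cfsg.Agent.Lib.Helper32.P8
open QuaternionGroup

/-- two homs out of the quaternion group agreeing on `a 1`, `xa 0` agree. -/
theorem q8_hom_ext {M : Type*} [Monoid M] (f g : QuaternionGroup 2 →* M)
    (h1 : f (a 1) = g (a 1)) (h2 : f (xa 0) = g (xa 0)) : ∀ q, f q = g q := by
  have ha : ∀ k : ZMod (2 * 2), f (a k) = g (a k) := by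
    intro k
    have : (a k : QuaternionGroup 2) = a 1 ^ k.val := by
      rw [QuaternionGroup.a_one_pow]; simp
    rw [this, map_pow, map_pow, h1]
  intro q
  cases q with
  | a k => exact ha k
  | xa k =>
    have : (xa k : QuaternionGroup 2) = xa 0 * a k := by
      rw [QuaternionGroup.xa_mul_a]; simp
    rw [this, map_mul, map_mul, h2, ha]

/-- (Q8A) an automorphism of the quaternion group sending every element to itself or its
inverse is inner. -/
theorem lemQ8aut : LemQ8aut.{u} := by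
  intro Q _ ⟨e⟩ ψ hψ
  let ψ' : QuaternionGroup 2 →* QuaternionGroup 2 :=
    (e.toMonoidHom.comp ψ.toMonoidHom).comp e.symm.toMonoidHom
  have hψ'def : ∀ q, ψ' q = e (ψ (e.symm q)) := fun q => rfl
  have hψ' : ∀ q, ψ' q = q ∨ ψ' q = q⁻¹ := by
    intro q
    rcases hψ (e.symm q) with h | h
    · left; rw [hψ'def, h]; simp
    · right; rw [hψ'def, h]; simp
  have key : ∃ t : QuaternionGroup 2,
      ψ' (a 1) = t * a 1 * t⁻¹ ∧ ψ' (xa 0) = t * xa 0 * t⁻¹ := by
    rcases hψ' (a 1) with h1 | h1 <;> rcases hψ' (xa 0) with h2 | h2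
    · exact ⟨1, by simp [h1], by simp [h2]⟩
    · exact ⟨a 1, by rw [h1]; decide, by rw [h2]; decide⟩
    · exact ⟨xa 0, by rw [h1]; decide, by rw [h2]; decide⟩
    · exact ⟨xa 1, by rw [h1]; decide, by rw [h2]; decide⟩
  obtain ⟨t, ht1, ht2⟩ := key
  have hall := q8_hom_ext ψ' (MulAut.conj t).toMonoidHom (by simpa using ht1)
    (by simpa using ht2)
  refine ⟨e.symm t, fun q => ?_⟩
  have h3 := hall (e q)
  apply e.injective
  rw [hψ'def] at h3
  simpa using h3

end Cfsg.Agent.Lib.Helper38.P8
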