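import Mathlib
import Cfsg.Agent.Lib.Helper32.P8.Tools

/-!
# S4409 packages [TR] and [GEN] (helper38)
-/

set_option autoImplicit false

universe u

namespace Cfsg.Agent.Lib.Helper38.P8

open Cfsg.Agent.Lib.Helper32.P8
open scoped commutatorElement

/-- (TR) the automorphism group induced on `N` by a subgroup `H` normalizing it. -/
theorem lemTr : LemTr.{u} := by
  intro G _ _ H N hHN
  classical
  have hc : ∀ h ∈ H, ∀ n ∈ N, h * n * h⁻¹ ∈ N :=
    fun h hh n hn => conj_mem_of_le_normalizer hHN hh hn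
  let f : ↥H →* MulAut ↥N :=
    { toFun := fun h =>
        { toFun := fun n => ⟨(h : G) * n * (h : G)⁻¹, hc h h.2 n n.2⟩
          invFun := fun n => ⟨(h : G)⁻¹ * n * (h : G), by
            simpa using hc (h : G)⁻¹ (H.inv_mem h.2) n n.2⟩
          left_inv := fun n => by ext; simp [mul_assoc]
          right_inv := fun n => by ext; simp [mul_assoc]
          map_mul' := fun a b => by ext; simp [mul_assoc] }
      map_one' := by ext; simp
      map_mul' := fun a b => by ext; simp [mul_assoc] }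
  refine ⟨f.range, ?_, ?_, ?_⟩
  · exact Subgroup.card_range_dvd f
  · rintro φ ⟨h, rfl⟩
    exact ⟨h, h.2, fun n => rfl⟩
  · intro h hh
    exact ⟨f ⟨h, hh⟩, ⟨_, rfl⟩, fun n => rfl⟩

/-- (GEN) `[N, H] = N` in type-level form. -/
theorem lemGen : LemGen.{u} := by
  intro G _ H N A hA hNH
  rw [eq_top_iff]
  intro n _
  have h1 : ⁅N, H⁆ ≤
      (Subgroup.closure {g : ↥N | ∃ φ ∈ A, ∃ x : ↥N, g = x⁻¹ * φ x}).map N.subtype := by
    rw [Subgroup.commutator_le]
    intro a ha h hh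
    obtain ⟨φ, hφ, hφh⟩ := hA h hh
    refine ⟨(⟨a⁻¹, N.inv_mem ha⟩ : ↥N)⁻¹ * φ ⟨a⁻¹, N.inv_mem ha⟩,
      Subgroup.subset_closure ⟨φ, hφ, _, rfl⟩, ?_⟩
    simp only [Subgroup.coe_subtype, Subgroup.coe_mul, Subgroup.coe_inv, hφh, inv_inv,
      commutatorElement_def]
    group
  have h2 : (n : G) ∈ ⁅N, H⁆ := by rw [hNH]; exact n.2
  obtain ⟨k, hk, hkn⟩ := h1 h2
  have : k = n := Subtype.ext hkn
  rw [← this]; exact hk

end Cfsg.Agent.Lib.Helper38.P8
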